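import Mathlib

/-!
# The element orders of `PSL₃(7)` (helper799)

* `orderOf_dvd` : the order of an element of `PSL₃(7)` divides 6, 14, 16 or 19;
* `exists_orderOf` : there are elements of orders 2, 3, 7 and 19.
-/

set_option autoImplicit false

namespace Cfsg.Agent.H799.L37

open Matrix

/-- the condition on the element orders -/
def Sp (X : Type*) [Group X] : Prop :=
  ∀ x : X, orderOf x ∣ 6 ∨ orderOf x ∣ 14 ∨ orderOf x ∣ 16 ∨ orderOf x ∣ 19

theorem Sp.of_injective {X Y : Type*} [Group X] [Group Y] (h : Sp Y) (f : X →* Y)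
    (hf : Function.Injective f) : Sp X := by
  intro x
  have := h (f x)
  rwa [orderOf_injective f hf] at this

theorem Sp.of_surjective {X Y : Type*} [Group X] [Group Y] (h : Sp X) (f : X →* Y)
    (hf : Function.Surjective f) : Sp Y := by
  intro y
  obtain ⟨x, rfl⟩ := hf y
  have h1 := orderOf_map_dvd f x
  rcases h x with h | h | h | h
  · exact Or.inl (h1.trans h)
  · exact Or.inr (Or.inl (h1.trans h))
  · exact Or.inr (Or.inr (Or.inl (h1.trans h)))
  · exact Or.inr (Or.inr (Or.inr (h1.trans h)))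

/-- the orders which divide one of the four numbers -/
theorem dvd_cases {n : ℕ} (h : n ∣ 6 ∨ n ∣ 14 ∨ n ∣ 16 ∨ n ∣ 19) :
    n = 1 ∨ n = 2 ∨ n = 3 ∨ n = 4 ∨ n = 6 ∨ n = 7 ∨ n = 8 ∨ n = 14 ∨ n = 16 ∨ n = 19 := by
  have hle : n ≤ 19 := by
    rcases h with h | h | h | h <;> have := Nat.le_of_dvd (by norm_num) h <;> omega
  interval_cases n <;> omega

abbrev P := Matrix.ProjectiveSpecialLinearGroup (Fin 3) (ZMod 7)
abbrev SL := Matrix.SpecialLinearGroup (Fin 3) (ZMod 7)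

instance : Fact (Nat.Prime 7) := ⟨by norm_num⟩

/-- multiplication by the matrix modulo its characteristic polynomial -/
def step (a b : ZMod 7) (v : ZMod 7 × ZMod 7 × ZMod 7) : ZMod 7 × ZMod 7 × ZMod 7 :=
  (v.1 * a + v.2.1, v.2.2 - v.1 * b, v.1)

/-- the coefficients of the powers -/
def pw (a b : ZMod 7) : ℕ → ZMod 7 × ZMod 7 × ZMod 7
  | 0 => (0, 0, 1)
  | n + 1 => step a b (pw a b n)

/-- Cayley--Hamilton for `3 × 3` matrices. -/
theorem cube_eq {R : Type*} [CommRing R] (A : Matrix (Fin 3) (Fin 3) R) (h : A.det = 1) :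
    A * (A * A) = (A 0 0 + A 1 1 + A 2 2) • (A * A) - (A 0 0 * A 1 1 - A 0 1 * A 1 0 +
      (A 0 0 * A 2 2 - A 0 2 * A 2 0) + (A 1 1 * A 2 2 - A 1 2 * A 2 1)) • A + 1 := by
  rw [Matrix.det_fin_three] at h
  ext i j
  fin_cases i <;> fin_cases j <;>
    simp [Matrix.mul_apply, Fin.sum_univ_three, Matrix.add_apply, Matrix.sub_apply, Matrix.smul_apply] <;>
    first
    | linear_combination h
    | ring

theorem pow_eq {A : Matrix (Fin 3) (Fin 3) (ZMod 7)} {a b : ZMod 7}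
    (h : A * (A * A) = a • (A * A) - b • A + 1) (n : ℕ) :
    A ^ n = (pw a b n).1 • (A * A) + (pw a b n).2.1 • A + (pw a b n).2.2 • 1 := by
  induction n with
  | zero => simp [pw]
  | succ n ih =>
    rw [pow_succ', ih, mul_add, mul_add, mul_smul_comm, mul_smul_comm, mul_smul_comm, h]
    simp only [pw, step]
    rw [mul_one]
    module

theorem exists_exp : ∀ a b : ZMod 7, ∃ e ∈ [6, 14, 16, 19], (pw a b e).1 = 0 ∧ (pw a b e).2.1 = 0 := by
  decide +kernel

/-- the projection -/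
def mk : SL →* P := QuotientGroup.mk' (Subgroup.center SL)

theorem mk_surjective : Function.Surjective mk := QuotientGroup.mk'_surjective _

theorem mk_eq_one_iff {A : SL} :
    mk A = 1 ↔ ∃ c : ZMod 7, c ^ 3 = 1 ∧ c • (1 : Matrix (Fin 3) (Fin 3) (ZMod 7)) = A.1 := by
  have h1 : mk A = 1 ↔ A ∈ Subgroup.center SL := QuotientGroup.eq_one_iff A
  rw [h1, Matrix.SpecialLinearGroup.mem_center_iff]
  simp only [Fintype.card_fin, Matrix.smul_one_eq_diagonal, Matrix.scalar_apply]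

/-- **The element orders of `PSL₃(7)`.** -/
theorem sp : Sp P := by
  intro x
  obtain ⟨A, rfl⟩ := mk_surjective x
  obtain ⟨e, he, h1, h2⟩ := exists_exp (A.1 0 0 + A.1 1 1 + A.1 2 2) (A.1 0 0 * A.1 1 1 - A.1 0 1 * A.1 1 0 +
      (A.1 0 0 * A.1 2 2 - A.1 0 2 * A.1 2 0) + (A.1 1 1 * A.1 2 2 - A.1 1 2 * A.1 2 1))
  have h3 := pow_eq (cube_eq A.1 A.2) e
  rw [h1, h2, zero_smul, zero_smul, zero_add, zero_add] at h3
  have h4 : mk A ^ e = 1 := by
    rw [← map_pow, mk_eq_one_iff]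
    refine ⟨_, ?_, (h3.symm.trans (Matrix.SpecialLinearGroup.coe_pow A e).symm)⟩
    have h5 := congrArg Matrix.det h3
    rw [Matrix.det_pow, A.2, one_pow, Matrix.det_smul, Matrix.det_one, Fintype.card_fin, mul_one] at h5
    exact h5.symm
  have h5 := orderOf_dvd_of_pow_eq_one h4
  simp only [List.mem_cons, List.not_mem_nil, or_false] at he
  rcases he with rfl | rfl | rfl | rfl
  · exact Or.inl h5
  · exact Or.inr (Or.inl h5)
  · exact Or.inr (Or.inr (Or.inl h5))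
  · exact Or.inr (Or.inr (Or.inr h5))

/-- explicit matrices give elements of prime order -/
theorem orderOf_mk {A : SL} {p : ℕ} (hp : p.Prime) (h : A ^ p = 1)
    (h1 : ¬ ∃ c : ZMod 7, c ^ 3 = 1 ∧ c • (1 : Matrix (Fin 3) (Fin 3) (ZMod 7)) = A.1) : orderOf (mk A) = p := by
  have := Fact.mk hp
  exact orderOf_eq_prime (by rw [← map_pow, h, map_one]) fun h2 => h1 (mk_eq_one_iff.1 h2)

def m2 : SL := ⟨!![-1, 0, 0; 0, -1, 0; 0, 0, 1], by decide +kernel⟩
def m7 : SL := ⟨!![1, 1, 0; 0, 1, 0; 0, 0, 1], by decide +kernel⟩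
def m19 : SL := ⟨!![0, 0, 1; 1, 0, 5; 0, 1, 0], by decide +kernel⟩
/-- normalizes `⟨m19⟩` -/
def fr : SL := ⟨!![0, 0, 1; 0, 5, 1; 4, 6, 2], by decide +kernel⟩

theorem not_scalar_of {A : SL} (h : A.1 0 1 ≠ 0 ∨ A.1 0 2 ≠ 0 ∨ A.1 0 0 ≠ A.1 2 2) :
    ¬ ∃ c : ZMod 7, c ^ 3 = 1 ∧ c • (1 : Matrix (Fin 3) (Fin 3) (ZMod 7)) = A.1 := by
  rintro ⟨c, -, hc⟩
  rw [← hc] at h
  simp [Matrix.smul_apply] at h

theorem m19_pow : m19 ^ 19 = 1 := by
  apply Subtype.ext
  decide +kernel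

theorem fr_pow : fr ^ 3 = 1 := by
  apply Subtype.ext
  decide +kernel

theorem fr_conj : fr * m19 = m19 ^ 7 * fr := by
  apply Subtype.ext
  decide +kernel

theorem orderOf_m19 : orderOf (mk m19) = 19 :=
  orderOf_mk (by norm_num) m19_pow (not_scalar_of (Or.inr (Or.inl (by decide))))

theorem orderOf_fr : orderOf (mk fr) = 3 :=
  orderOf_mk (by norm_num) fr_pow (not_scalar_of (Or.inr (Or.inl (by decide))))

theorem orderOf_m2 : orderOf (mk m2) = 2 :=
  orderOf_mk (by norm_num) (Subtype.ext (by decide +kernel)) (not_scalar_of (Or.inr (Or.inr (by decide))))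

theorem orderOf_m7 : orderOf (mk m7) = 7 :=
  orderOf_mk (by norm_num) (Subtype.ext (by decide +kernel)) (not_scalar_of (Or.inl (by decide)))

end Cfsg.Agent.H799.L37
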